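import Cfsg.Agent.H450.GenU.Frame

/-!
# Two elements generating `SU₃(q)` modulo a semilinear monomial element (helper450, TEAM GEN H)
-/

set_option autoImplicit false

namespace Cfsg.Agent.H450.GenU

open Cfsg Cfsg.Agent.LieClassical.HermBasic Cfsg.Agent.LieClassical.HermSiegel
  Cfsg.Agent.LieClassical.HermGen Cfsg.Agent.LieClassical.SUBasic
  Cfsg.Agent.ClassicalGeometry.PSUAutCount Cfsg.Agent.ClassicalGeometry.UnitAutBasic Matrix
open Cfsg.Agent.H903.SylSemi Cfsg.Agent.H177.MeetPSU Cfsg.Agent.H137.Herm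

variable {F : Type} [Field F] [Fintype F] {q : ℕ}

/-- The core: `S = diag(z, z^{-q}, c)`, `w` semilinear exchanging `e` and `f`. -/
theorem gen_core (hF : Fintype.card F = q ^ 2) (hq : 3 ≤ q) {M : Subgroup (MulAut (PSU 3 F q))}
    {e f d : Fin 3 → F} (B : Fr q e f d) {ρ : F ≃+* F} {S w : Equiv.Perm (Fin 3 → F)} {z c b : F}
    (hz0 : z ≠ 0) (hz1 : ∀ y : F, y ≠ 0 → ∃ k : ℕ, z ^ k = y)
    (hz2 : ∀ k : ℕ, 0 < k → k < q ^ 2 - 1 → z ^ k ≠ 1)
    (hS : SI 3 q (1 : F ≃+* F) S) (hSe : S e = z • e) (hSf : S f = (z ^ q)⁻¹ • f) (hSd : S d = c • d)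
    (hw : SI 3 q ρ w) (hwe : w e = f) (hwf : w f = e) (hwd : w d = b • d) (hb : b ≠ 0)
    (hc : c = z ^ q * z⁻¹ ∨ c = 1) {μ : F} (k : IsSiegel q e d μ)
    (hSM : S ∈ LL M) (hyM : rho 3 F q (siegel hF e d μ k) * w ∈ LL M) :
    KK M = ⊤ ∧ w ∈ LL M := by
  have hqq : 3 * q ≤ q ^ 2 := by rw [pow_two]; exact Nat.mul_le_mul_right q hq
  have hzq : z ^ q ≠ 0 := pow_ne_zero _ hz0
  have hpow : ∀ k l : ℕ, l < k → k - l < q ^ 2 - 1 → z ^ k ≠ z ^ l := by
    intro k l hkl hlt h
    refine hz2 (k - l) (by omega) hlt ?_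
    have h4 : z ^ (k - l) * z ^ l = 1 * z ^ l := by
      rw [← pow_add, Nat.sub_add_cancel hkl.le, h, one_mul]
    exact mul_right_cancel₀ (pow_ne_zero _ hz0) h4
  have hc0 : c ≠ 0 := by
    rcases hc with rfl | rfl
    · exact mul_ne_zero hzq (inv_ne_zero hz0)
    · exact one_ne_zero
  -- the conjugate of `S`
  have hwi : ∀ v, w⁻¹ (w v) = v := fun v => by
    rw [← Equiv.Perm.mul_apply, inv_mul_cancel, Equiv.Perm.one_apply]
  have hwie : w⁻¹ e = f := by rw [← hwf, hwi]
  have hwif : w⁻¹ f = e := by rw [← hwe, hwi]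
  have hwid : w⁻¹ d = ρ.symm b⁻¹ • d := by
    have h : w (ρ.symm b⁻¹ • d) = d := by
      rw [hw.smul, hwd, RingEquiv.apply_symm_apply, smul_smul, inv_mul_cancel₀ hb, one_smul]
    conv_lhs => rw [← h]
    rw [hwi]
  have he' : (w * S * w⁻¹) e = ρ (z ^ q)⁻¹ • e := by
    rw [Equiv.Perm.mul_apply, Equiv.Perm.mul_apply, hwie, hSf, hw.smul, hwf]
  have hf' : (w * S * w⁻¹) f = ρ z • f := by
    rw [Equiv.Perm.mul_apply, Equiv.Perm.mul_apply, hwif, hSe, hw.smul, hwe]
  have hd' : (w * S * w⁻¹) d = ρ c • d := by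
    rw [Equiv.Perm.mul_apply, Equiv.Perm.mul_apply, hwid, hS.smul, hSd, RingAut.one_apply, hw.smul, hw.smul, hwd,
      RingEquiv.apply_symm_apply, smul_smul, smul_smul]
    congr 1
    field_simp
  have hhI : SI 3 q (1 : F ≃+* F) (w * S * w⁻¹) := by
    have h := (hw.mul hS).mul hw.inv
    rwa [mul_one, mul_inv_cancel] at h
  have hcomm : S * (w * S * w⁻¹) = (w * S * w⁻¹) * S := by
    refine B.ext (ρ := 1) (by have := hS.mul hhI; rwa [mul_one] at this)
      (by have := hhI.mul hS; rwa [mul_one] at this) ?_ ?_ ?_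
    · rw [Equiv.Perm.mul_apply S, Equiv.Perm.mul_apply (w * S * w⁻¹) S, he', hSe, hS.smul, hhI.smul, hSe, he',
        smul_smul, smul_smul, RingAut.one_apply, RingAut.one_apply, mul_comm]
    · rw [Equiv.Perm.mul_apply S, Equiv.Perm.mul_apply (w * S * w⁻¹) S, hf', hSf, hS.smul, hhI.smul, hSf, hf',
        smul_smul, smul_smul, RingAut.one_apply, RingAut.one_apply, mul_comm]
    · rw [Equiv.Perm.mul_apply S, Equiv.Perm.mul_apply (w * S * w⁻¹) S, hd', hSd, hS.smul, hhI.smul, hSd, hd',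
        smul_smul, smul_smul, RingAut.one_apply, RingAut.one_apply, mul_comm]
  obtain ⟨μ', h1⟩ := torus_semi hS hw hSM k hyM hSe hSd he' hd' hcomm
  -- the coefficient is not zero
  have hane : z ^ q * c ≠ 1 := by
    rcases hc with rfl | rfl
    · intro h
      apply hpow (q + q) 1 (by omega) (by omega)
      rw [pow_one, pow_add]
      have := congrArg (fun t => t * z) h
      simp only [mul_assoc, inv_mul_cancel₀ hz0, mul_one, one_mul] at this
      exact this
    · rw [mul_one]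
      exact hz2 q (by omega) (by omega)
  have hcne : (ρ (z ^ q)⁻¹) ^ q * ρ c ≠ 1 := by
    intro h
    have h2 : ((z ^ q)⁻¹) ^ q * c = 1 := by
      apply ρ.injective
      rw [map_mul, map_pow, map_one, h]
    rw [inv_pow, pow_q_pow_q hF] at h2
    have h3 : c = z := by
      have := congrArg (fun t => z * t) h2
      simpa [← mul_assoc, mul_inv_cancel₀ hz0] using this
    rcases hc with h4 | h4
    · rw [h3] at h4
      apply hpow q 2 (by omega) (by omega)
      have := congrArg (fun t => t * z) h4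
      simp only [mul_assoc, inv_mul_cancel₀ hz0, mul_one] at this
      rw [pow_two, this]
    · rw [h3] at h4
      exact hz2 1 (by omega) (by omega) (by rw [pow_one, h4])
  have hne0 : (z ^ q * c - 1) * (1 - (ρ (z ^ q)⁻¹) ^ q * ρ c) ≠ 0 :=
    mul_ne_zero (sub_ne_zero.2 hane) (sub_ne_zero.2 (Ne.symm hcne))
  -- all multiples of `d`
  have hall : ∀ a : F, a • d ∈ WS hF (KK M) e B.ee := by
    let Y : AddSubgroup F :=
      { carrier := {a | a • d ∈ WS hF (KK M) e B.ee}
        zero_mem' := by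
          show (0 : F) • d ∈ WS hF (KK M) e B.ee
          rw [zero_smul]; exact AddSubgroup.zero_mem _
        add_mem' := fun {a b} ha hb => by
          show (a + b) • d ∈ WS hF (KK M) e B.ee
          rw [add_smul]; exact AddSubgroup.add_mem _ ha hb
        neg_mem' := fun {a} ha => by
          show (-a) • d ∈ WS hF (KK M) e B.ee
          rw [neg_smul]; exact AddSubgroup.neg_mem _ ha }
    have hY : ∀ a, a ∈ Y ↔ a • d ∈ WS hF (KK M) e B.ee := fun a => Iff.rfl
    have hYmul : ∀ y ∈ Y, ∀ k : ℕ, (z ^ q * c) ^ k * y ∈ Y := by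
      intro y hy k
      induction k with
      | zero => rwa [pow_zero, one_mul]
      | succ k ih =>
        obtain ⟨ν, hν⟩ := (hY _).1 ih
        have h2 := SM_eig hSM hS hν hSe (t := c) (by
          rw [hS.smul, hSd, smul_smul, smul_smul, RingAut.one_apply, mul_comm])
        refine (hY _).2 ⟨_, h2.congr rfl ?_ rfl⟩
        rw [smul_smul, pow_succ]
        congr 1
        ring
    have hYne := (hY _).2 ⟨μ', h1⟩
    intro a
    rw [← hY]
    rcases hc with hc' | hc'
    · refine mem_of_cube Y ?_ ⟨z, hz0, hz2 3 (by omega) (by omega)⟩ hYne hne0 a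
      intro c1 hc1 y hy
      obtain ⟨k, hk⟩ := hz1 c1 hc1
      have h3 := hYmul y hy ((2 * q + 1) * k)
      have e : (z ^ q * c) ^ ((2 * q + 1) * k) = c1 ^ 3 := by
        rw [pow_mul, ← hk, ← pow_mul z k 3, mul_comm k 3, pow_mul z 3 k]
        congr 1
        have e1 : (z ^ q * c) ^ (2 * q + 1) * z ^ (2 * q + 1) =
            z ^ 3 * z ^ (2 * q + 1) := by
          rw [← mul_pow]
          have : z ^ q * c * z = z ^ q * z ^ q := by rw [hc']; field_simp
          rw [this, pow_succ, mul_comm 2 q, pow_mul, mul_pow (z ^ q) (z ^ q) q, pow_q_pow_q hF,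
            pow_succ z (q * 2), pow_mul]
          ring
        exact mul_right_cancel₀ (pow_ne_zero _ hz0) e1
      rw [e] at h3
      exact h3
    · by_cases ha : a = 0
      · rw [ha]; exact Y.zero_mem
      · obtain ⟨k, hk⟩ := hz1 ((a / ((z ^ q * c - 1) * (1 - (ρ (z ^ q)⁻¹) ^ q * ρ c))) ^ q)
          (pow_ne_zero _ (div_ne_zero ha hne0))
        have h3 := hYmul _ hYne k
        have e : (z ^ q * c) ^ k = a / ((z ^ q * c - 1) * (1 - (ρ (z ^ q)⁻¹) ^ q * ρ c)) := by
          conv_lhs => rw [hc', mul_one, ← pow_mul, mul_comm q k, pow_mul, hk, pow_q_pow_q hF]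
        rw [e, div_mul_cancel₀ _ hne0] at h3
        exact h3
  -- the centre
  have hcen : ∀ ν : F, ν + ν ^ q = 0 → SM hF (KK M) e 0 ν := fun ν hν =>
    SM.center (w := d) (w' := d) one_ne_zero B.ee hall
      (by have := hall 1; rwa [one_smul] at this) B.dd hν
  have htau : SM hF (KK M) e d μ := by
    obtain ⟨ν, hν⟩ := hall 1
    rw [one_smul] at hν
    have h3 : SM hF (KK M) e 0 (μ - ν) := by
      apply hcen
      obtain ⟨k', -⟩ := hν
      rw [sub_pow_q hF]
      linear_combination k.tr - k'.tr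
    refine (hν.mul h3).congr rfl (add_zero _) ?_
    rw [herm_zero_left]
    ring
  have hwM : w ∈ LL M := by
    obtain ⟨k', hk'⟩ := htau
    have := mul_mem (inv_mem (mem_KK.1 hk')) hyM
    rwa [inv_mul_cancel_left] at this
  refine ⟨?_, hwM⟩
  have he0 : e ≠ 0 := by
    intro h0
    have := B.ef
    rw [h0, herm_zero_left] at this
    exact zero_ne_one this
  have hfull : Full hF (KK M) e := by
    refine full_of_WS le_rfl B.ee he0 ?_
    intro x hx
    rw [B.expand x, hx, zero_smul, add_zero]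
    exact AddSubgroup.add_mem _ (mem_WS_self _ _) (hall _)
  have hfull' : Full hF (KK M) f := by
    intro x ν hx
    have h2 : IsSiegel q e (w⁻¹ x) (ρ⁻¹ ν) := by
      have := isSiegel_map hw.inv hx
      rwa [hwif] at this
    refine (SM_semi hwM hw (hfull _ _ h2)).congr hwe ?_ ?_
    · rw [← Equiv.Perm.mul_apply, mul_inv_cancel, Equiv.Perm.one_apply]
    · rw [← RingAut.mul_apply, mul_inv_cancel, RingAut.one_apply]
  exact eq_top_of_full le_rfl B.ee B.ff (by rw [B.ef]; exact one_ne_zero) hfull hfull'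

end Cfsg.Agent.H450.GenU
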