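import Cfsg.Agent.H450.GenU.Core
import Cfsg.Agent.H206.FieldKill
import Cfsg.Agent.H891.Gen.Defs
import Cfsg.Agent.H136.TwoGen

/-!
# Every group between `PSU₃(q)` and its automorphism group is 2-generated (helper450, TEAM GEN H)
-/

set_option autoImplicit false

namespace Cfsg.Agent.H450.GenU

open Cfsg Cfsg.Agent.LieClassical.HermBasic Cfsg.Agent.LieClassical.HermSiegel
  Cfsg.Agent.LieClassical.HermGen Cfsg.Agent.LieClassical.SUBasic
  Cfsg.Agent.ClassicalGeometry.PSUAutCount Cfsg.Agent.ClassicalGeometry.UnitAutBasic Matrix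
open Cfsg.Agent.H903.SylSemi Cfsg.Agent.H177.MeetPSU Cfsg.Agent.H137.Herm
open Cfsg.Agent.H440.TwoGen

section aut

variable {F : Type} [Field F] [Fintype F] {q : ℕ}

omit [Fintype F] in
theorem SI.semi_inv {y : Equiv.Perm (Fin 3 → F)} (h : SI 3 q (1 : F ≃+* F) y) : Semi F y⁻¹ (1 : F ≃+* F) := by
  have h1 := h.inv.1
  rwa [inv_one] at h1

omit [Fintype F] in
/-- Scalars of norm one. -/
theorem SI.scal {c : F} (hc : c * c ^ q = 1) (hc0 : c ≠ 0) :
    SI 3 q (1 : F ≃+* F) (scal F (Fin 3 → F) (Units.mk0 c hc0)) := by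
  refine ⟨⟨fun u v => ?_, fun b v => ?_⟩, fun u v => ?_⟩
  · rw [scal_apply, scal_apply, scal_apply, smul_add]
  · rw [scal_apply, scal_apply, smul_comm]
    rfl
  · rw [scal_apply, scal_apply, herm_smul_left, herm_smul_right, Units.val_mk0, ← mul_assoc, hc, one_mul]
    rfl

omit [Fintype F] in
theorem Dt.scal {c : F} (hc0 : c ≠ 0) : Dt (Cfsg.Agent.H903.SylSemi.scal F (Fin 3 → F) (Units.mk0 c hc0)) (c ^ 3) := by
  refine ⟨c • LinearMap.id, fun v => rfl, ?_⟩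
  rw [LinearMap.det_smul, LinearMap.det_id, mul_one]
  simp

theorem scal_mem (M : Subgroup (MulAut (PSU 3 F q))) {c : F} (hc : c * c ^ q = 1) (hc0 : c ≠ 0) :
    scal F (Fin 3 → F) (Units.mk0 c hc0) ∈ LL M :=
  ⟨⟨_, SI.scal hc hc0⟩, 1, M.one_mem, ind_scal _⟩

/-- The elements of `LL H` with determinants differing by the cube of a scalar of norm one. -/
theorem mem_of_dt {H : Subgroup (MulAut (PSU 3 F q))} (hH : ∀ x, MulAut.conj x ∈ H)
    {y y' : Equiv.Perm (Fin 3 → F)} (hy : SI 3 q (1 : F ≃+* F) y) (hy' : SI 3 q (1 : F ≃+* F) y') (hyH : y ∈ LL H)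
    {δ : F} (h : Dt y δ) (h' : Dt y' δ) : y' ∈ LL H := by
  have hδ := h'.ne_zero hy'.semi_inv
  have h1 : SI 3 q (1 : F ≃+* F) (y' * y⁻¹) := by
    have := hy'.mul hy.inv
    rwa [inv_one, mul_one] at this
  have h2 : Dt (y' * y⁻¹) 1 := by
    have := h'.mul (h.inv hy.semi_inv)
    rwa [mul_inv_cancel₀ hδ] at this
  obtain ⟨s, hs⟩ := exists_rho h1 h2
  have h3 : rho 3 F q s ∈ LL H := mem_KK.1 (mem_KK'.2 (hH _))
  rw [hs] at h3
  have := mul_mem h3 hyH
  rwa [inv_mul_cancel_right] at this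

/-- **Main theorem.** -/
theorem twoGen_of_inn (hF : Fintype.card F = q ^ 2) (hq : 3 ≤ q) (H : Subgroup (MulAut (PSU 3 F q)))
    (hH : ∀ x, MulAut.conj x ∈ H) : TwoGen ↥H := by
  classical
  obtain ⟨e, f, d, B⟩ := exists_fr (q := q) hF
  obtain ⟨z, hz0, hz1, hz2⟩ := exists_gen hF
  have hqq : 3 * q ≤ q ^ 2 := by rw [pow_two]; exact Nat.mul_le_mul_right q hq
  have hzq : z ^ q ≠ 0 := pow_ne_zero _ hz0
  have hrho : ∀ s, rho 3 F q s ∈ LL H := fun s => mem_KK.1 (mem_KK'.2 (hH _))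
  -- the field automorphisms
  have hcyc : IsCyclic (F ≃+* F) := Cfsg.Agent.H206.FieldKill.isCyclic_aut F
  let R : Subgroup (F ≃+* F) :=
    { carrier := {ρ | ∃ y ∈ LL H, SI 3 q ρ y}
      mul_mem' := by
        rintro ρ ρ' ⟨y, h1, h2⟩ ⟨y', h1', h2'⟩
        exact ⟨_, mul_mem h1 h1', h2.mul h2'⟩
      one_mem' := ⟨1, one_mem _, SI.one⟩
      inv_mem' := by
        rintro ρ ⟨y, h1, h2⟩
        exact ⟨_, inv_mem h1, h2.inv⟩ }
  have hR : ∀ ρ, ρ ∈ R ↔ ∃ y ∈ LL H, SI 3 q ρ y := fun _ => Iff.rfl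
  obtain ⟨⟨ρ0, hρ0⟩, hgen⟩ := IsCyclic.exists_generator (α := ↥R)
  obtain ⟨y0, hy0, hy0I⟩ := (hR _).1 hρ0
  -- the element `σ` and the determinant
  obtain ⟨σ, hσ, hσe, hσf, hσd⟩ := exists_mono hF ρ0 B B
  have hyσ : SI 3 q (1 : F ≃+* F) (y0 * σ⁻¹) := by
    have := hy0I.mul hσ.inv
    rwa [mul_inv_cancel] at this
  obtain ⟨δ, hδ⟩ := Dt.exists hyσ.1
  have hδ0 : δ ≠ 0 := hδ.ne_zero hyσ.semi_inv
  have hδq : δ ^ (q + 1) = 1 := hδ.norm hF hyσ
  have hb : (-δ) * (-δ) ^ q = 1 := by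
    rw [neg_pow_q hF, neg_mul_neg, ← pow_succ', hδq]
  have hb0 : -δ ≠ 0 := neg_ne_zero.2 hδ0
  obtain ⟨w, hw, hwe, hwf, hwd⟩ := exists_mono hF ρ0 B (B.swap hb)
  have hσi : ∀ v, σ⁻¹ (σ v) = v := fun v => by
    rw [← Equiv.Perm.mul_apply, inv_mul_cancel, Equiv.Perm.one_apply]
  have hwσ : SI 3 q (1 : F ≃+* F) (w * σ⁻¹) := by
    have := hw.mul hσ.inv
    rwa [mul_inv_cancel] at this
  have hwσd : Dt (w * σ⁻¹) δ := by
    have h := B.dt_swap hwσ (c := -δ) (by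
      rw [Equiv.Perm.mul_apply, ← hwe]
      conv_lhs => rw [← hσe, hσi]) (by
      rw [Equiv.Perm.mul_apply, ← hwf]
      conv_lhs => rw [← hσf, hσi]) (by
      rw [Equiv.Perm.mul_apply, ← hwd]
      conv_lhs => rw [← hσd, hσi])
    rwa [neg_neg] at h
  have hwH : w ∈ LL H := by
    have h1 : SI 3 q (1 : F ≃+* F) (w * y0⁻¹) := by
      have := hw.mul hy0I.inv
      rwa [mul_inv_cancel] at this
    have h2 : Dt (w * y0⁻¹) 1 := by
      have h3 := hwσd.mul (hδ.inv hyσ.semi_inv)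
      rw [mul_inv_cancel₀ hδ0] at h3
      have h4 : (w * σ⁻¹) * (y0 * σ⁻¹)⁻¹ = w * y0⁻¹ := by group
      rwa [h4] at h3
    obtain ⟨s, hs⟩ := exists_rho h1 h2
    have h3 := mul_mem (hrho s) hy0
    rwa [hs, inv_mul_cancel_right] at h3
  -- the generator of the norm one group
  set g0 : F := z ^ q * z⁻¹ with hg0
  have hg00 : g0 ≠ 0 := mul_ne_zero hzq (inv_ne_zero hz0)
  have hg0n : g0 * g0 ^ q = 1 := by
    rw [hg0, mul_pow, pow_q_pow_q hF, inv_pow]
    field_simp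
  have hg0gen : ∀ x : F, x ^ (q + 1) = 1 → ∃ j : ℕ, x = g0 ^ j := by
    intro x hx
    have hx0 : x ≠ 0 := by
      rintro rfl
      rw [zero_pow (by omega)] at hx
      exact zero_ne_one hx
    obtain ⟨k, hk⟩ := hz1 x hx0
    rw [← hk, ← pow_mul] at hx
    -- `q^2 - 1 ∣ k (q+1)`
    have hord : (q ^ 2 - 1) ∣ k * (q + 1) := by
      by_contra hnd
      have h1 : z ^ (k * (q + 1) % (q ^ 2 - 1)) = 1 := by
        have h2 : z ^ (q ^ 2 - 1) = 1 := by
          have := FiniteField.pow_card_sub_one_eq_one z hz0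
          rwa [hF] at this
        have h3 := hx
        rw [← Nat.div_add_mod (k * (q + 1)) (q ^ 2 - 1), pow_add, pow_mul, h2, one_pow, one_mul] at h3
        exact h3
      refine hz2 _ (Nat.pos_of_ne_zero fun h0 => hnd (Nat.dvd_of_mod_eq_zero h0)) (Nat.mod_lt _ (by omega)) h1
    have hfac : q ^ 2 - 1 = (q - 1) * (q + 1) := by
      have := Nat.sq_sub_sq q 1
      rw [one_pow] at this
      rw [this, mul_comm]
    rw [hfac] at hord
    obtain ⟨j, hj⟩ := Nat.dvd_of_mul_dvd_mul_right (by omega : 0 < q + 1) hord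
    refine ⟨j, ?_⟩
    rw [← hk, hj, pow_mul]
    congr 1
    have h5 : z ^ (q - 1) * z = z ^ q := by rw [← pow_succ, Nat.sub_add_cancel (by omega)]
    rw [hg0, ← h5, mul_inv_cancel_right₀ hz0]
  -- the torus element
  obtain ⟨c, hc, S, hS, hSe, hSf, hSd, hSH, hSgen⟩ : ∃ c : F, (c = z ^ q * z⁻¹ ∨ c = 1) ∧
      ∃ S : Equiv.Perm (Fin 3 → F), SI 3 q (1 : F ≃+* F) S ∧ S e = z • e ∧ S f = (z ^ q)⁻¹ • f ∧ S d = c • d ∧
        S ∈ LL H ∧ ∀ y : Equiv.Perm (Fin 3 → F), SI 3 q (1 : F ≃+* F) y → y ∈ LL H →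
          ∃ (a : F) (_ : a * a ^ q = 1) (ha : a ≠ 0) (j : ℕ) (s : SU 3 F q),
            y = rho 3 F q s * S⁻¹ ^ j * scal F (Fin 3 → F) (Units.mk0 a ha) := by
    by_cases hcase : ∀ y : Equiv.Perm (Fin 3 → F), SI 3 q (1 : F ≃+* F) y → y ∈ LL H →
        ∃ (a : F) (_ : a * a ^ q = 1) (_ : a ≠ 0), Dt y (a ^ 3)
    · obtain ⟨S, hS, hSe, hSf, hSd⟩ := exists_mono hF (1 : F ≃+* F) B (B.scale hF hz0 hg0n)
      have hSdt : Dt S 1 := by
        have h := B.dt_diag hS hSe hSf hSd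
        have h2 : z * (z ^ q)⁻¹ * g0 = 1 := by
          rw [hg0]; field_simp
        rwa [h2] at h
      obtain ⟨s, hs⟩ := exists_rho hS hSdt
      refine ⟨g0, Or.inl rfl, S, hS, hSe, hSf, hSd, by rw [← hs]; exact hrho s, ?_⟩
      intro y hy hyH
      obtain ⟨a, ha1, ha0, ha⟩ := hcase y hy hyH
      have hsc := SI.scal (q := q) ha1 ha0
      have h1 : SI 3 q (1 : F ≃+* F) (y * (scal F (Fin 3 → F) (Units.mk0 a ha0))⁻¹) := by
        have := hy.mul hsc.inv
        rwa [inv_one, mul_one] at this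
      have h2 : Dt (y * (scal F (Fin 3 → F) (Units.mk0 a ha0))⁻¹) 1 := by
        have := ha.mul ((Dt.scal ha0).inv hsc.semi_inv)
        rwa [mul_inv_cancel₀ (pow_ne_zero 3 ha0)] at this
      obtain ⟨t, ht⟩ := exists_rho h1 h2
      refine ⟨a, ha1, ha0, 0, t, ?_⟩
      rw [ht, pow_zero, mul_one, inv_mul_cancel_right]
    · push Not at hcase
      obtain ⟨y1, hy1, hy1H, hy1c⟩ := hcase
      obtain ⟨δ1, hδ1⟩ := Dt.exists hy1.1
      obtain ⟨j1, hj1⟩ := hg0gen δ1 (hδ1.norm hF hy1)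
      -- `3 ∤ j1`
      have h3 : ¬ 3 ∣ j1 := by
        rintro ⟨l, rfl⟩
        refine hy1c (g0 ^ l) ?_ (pow_ne_zero _ hg00) ?_
        · rw [← pow_mul, mul_comm l q, pow_mul, ← mul_pow, hg0n, one_pow]
        · rw [← pow_mul, mul_comm l 3, ← hj1]
          exact hδ1
      -- an element of determinant `g0`
      have hg0q : g0 ^ (q + 1) = 1 := by rw [pow_succ']; exact hg0n
      obtain ⟨a, b, hab⟩ : ∃ a b : ℕ, g0 ^ (j1 * a + 3 * b) = g0 := by
        have hco : Nat.Coprime j1 3 := ((Nat.Prime.coprime_iff_not_dvd Nat.prime_three).2 h3).symm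
        have hbez := Nat.gcd_eq_gcd_ab j1 3
        rw [hco.gcd_eq_one] at hbez
        set A := Nat.gcdA j1 3
        set C := Nat.gcdB j1 3
        refine ⟨(A % ((q : ℤ) + 1)).toNat, (C % ((q : ℤ) + 1)).toNat, ?_⟩
        have hmod : ((j1 * (A % ((q : ℤ) + 1)).toNat + 3 * (C % ((q : ℤ) + 1)).toNat : ℕ) : ℤ) ≡ 1 [ZMOD (q + 1)] := by
          have hq1 : ((q : ℤ) + 1) ≠ 0 := by positivity
          push_cast
          rw [Int.toNat_of_nonneg (Int.emod_nonneg _ hq1), Int.toNat_of_nonneg (Int.emod_nonneg _ hq1)]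
          have e1 : (j1 : ℤ) * (A % ((q : ℤ) + 1)) + 3 * (C % ((q : ℤ) + 1)) ≡ j1 * A + 3 * C [ZMOD (q + 1)] :=
            ((Int.mod_modEq A _).mul_left _).add ((Int.mod_modEq C _).mul_left _)
          refine e1.trans ?_
          rw [← (by exact_mod_cast hbez : (1 : ℤ) = j1 * A + 3 * C)]
        have hmod' : (j1 * (A % ((q : ℤ) + 1)).toNat + 3 * (C % ((q : ℤ) + 1)).toNat) ≡ 1 [MOD (q + 1)] := by
          rw [← Int.natCast_modEq_iff]
          exact_mod_cast hmod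
        have hunit : ∀ m n : ℕ, m ≡ n [MOD (q + 1)] → g0 ^ m = g0 ^ n := by
          intro m n hmn
          rw [← Nat.div_add_mod m (q + 1), ← Nat.div_add_mod n (q + 1), pow_add, pow_add, pow_mul, pow_mul, hg0q,
            one_pow, one_pow]
          have : m % (q + 1) = n % (q + 1) := hmn
          rw [this]
        have := hunit _ _ hmod'
        rwa [pow_one] at this
      set y2 : Equiv.Perm (Fin 3 → F) := y1 ^ a * (scal F (Fin 3 → F) (Units.mk0 g0 hg00)) ^ b with hy2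
      have hpowSI : ∀ {y : Equiv.Perm (Fin 3 → F)}, SI 3 q (1 : F ≃+* F) y → ∀ m : ℕ, SI 3 q (1 : F ≃+* F) (y ^ m) := by
        intro y hy m
        induction m with
        | zero => rw [pow_zero]; exact SI.one
        | succ m ih =>
          rw [pow_succ]
          have := ih.mul hy
          rwa [mul_one] at this
      have hy2I : SI 3 q (1 : F ≃+* F) y2 := by
        have := (hpowSI hy1 a).mul (hpowSI (SI.scal (q := q) hg0n hg00) b)
        rwa [mul_one] at this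
      have hy2H : y2 ∈ LL H := mul_mem (pow_mem hy1H _) (pow_mem (scal_mem H hg0n hg00) _)
      have hy2d : Dt y2 g0 := by
        have h5 := (hδ1.pow a).mul ((Dt.scal hg00).pow b)
        rw [hj1, ← pow_mul, ← pow_mul, ← pow_add, hab] at h5
        exact h5
      obtain ⟨S, hS, hSe, hSf, hSd⟩ := exists_mono hF (1 : F ≃+* F) B
        (B.scale hF (c := 1) hz0 (by rw [one_pow, one_mul]))
      have hSdt : Dt S g0⁻¹ := by
        have h := B.dt_diag hS hSe hSf hSd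
        have h2 : z * (z ^ q)⁻¹ * 1 = g0⁻¹ := by
          rw [hg0]; field_simp
        rwa [h2] at h
      have hSi : SI 3 q (1 : F ≃+* F) S⁻¹ := by
        have := hS.inv
        rwa [inv_one] at this
      have hSdi : Dt S⁻¹ g0 := by
        have := hSdt.inv hS.semi_inv
        rwa [inv_inv] at this
      have hSH : S⁻¹ ∈ LL H := mem_of_dt hH hy2I hSi hy2H hy2d hSdi
      refine ⟨1, Or.inr rfl, S, hS, hSe, hSf, hSd, by have := inv_mem hSH; rwa [inv_inv] at this, ?_⟩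
      intro y hy hyH
      obtain ⟨δ2, hδ2⟩ := Dt.exists hy.1
      obtain ⟨j, hj⟩ := hg0gen δ2 (hδ2.norm hF hy)
      have h1 : SI 3 q (1 : F ≃+* F) (y * (S⁻¹ ^ j)⁻¹) := by
        have := hy.mul (hpowSI hSi j).inv
        rwa [inv_one, mul_one] at this
      have h2 : Dt (y * (S⁻¹ ^ j)⁻¹) 1 := by
        have h6 := hδ2.mul ((hSdi.pow j).inv (hpowSI hSi j).semi_inv)
        rwa [hj, mul_inv_cancel₀ (pow_ne_zero _ hg00)] at h6
      obtain ⟨t, ht⟩ := exists_rho h1 h2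
      refine ⟨1, by rw [one_pow, one_mul], one_ne_zero, j, t, ?_⟩
      rw [ht, inv_mul_cancel_right]
      have : Units.mk0 (1 : F) one_ne_zero = 1 := by ext; rfl
      rw [this, map_one, mul_one]
  -- the Siegel element
  obtain ⟨μ, hμ⟩ := exists_trace_eq hF (c := (-1 : F)) (by rw [neg_pow_q hF, one_pow])
  have k : IsSiegel q e d μ := ⟨B.ee, B.de, by rw [B.dd, hμ]; ring⟩
  have htH : rho 3 F q (siegel hF e d μ k) * w ∈ LL H := mul_mem (hrho _) hwH
  obtain ⟨-, β1, hβ1, hi1⟩ := hSH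
  obtain ⟨-, β2, hβ2, hi2⟩ := htH
  refine Cfsg.Agent.H136.TwoGen.of_ambient H ⟨β1, β2, hβ1, hβ2, ?_⟩
  set M : Subgroup (MulAut (PSU 3 F q)) := Subgroup.closure {β1, β2} with hM
  have hSM : S ∈ LL M := ⟨⟨_, hS⟩, β1, Subgroup.subset_closure (by simp), hi1⟩
  have htM : rho 3 F q (siegel hF e d μ k) * w ∈ LL M :=
    ⟨⟨_, (SI.rho _).mul hw⟩, β2, Subgroup.subset_closure (by simp), hi2⟩
  obtain ⟨htop, hwM⟩ := gen_core hF hq B hz0 hz1 hz2 hS hSe hSf hSd hw hwe hwf hwd hb0 hc k hSM htM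
  have hrhoM : ∀ s, rho 3 F q s ∈ LL M := fun s => mem_KK.1 (by rw [htop]; trivial)
  intro β hβ
  obtain ⟨A, θ, hA⟩ := ClassicalGeometry.PSUAutMain.exists_toAut hF le_rfl (by omega) β
  have hyI : SI 3 q θ (yy A θ) := SI.yy A θ
  have hyH : yy A θ ∈ LL H := ⟨⟨_, hyI⟩, β, hβ, by rw [hA]; exact ind_yy A θ⟩
  -- the field part
  obtain ⟨m, hm⟩ := hgen ⟨θ, (hR θ).2 ⟨_, hyH, hyI⟩⟩
  have hm' : ρ0 ^ m = θ := congrArg Subtype.val hm
  have hzpow : ∀ m : ℤ, SI 3 q (ρ0 ^ m) (w ^ m) := by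
    intro m
    induction m using Int.induction_on with
    | zero => rw [zpow_zero, zpow_zero]; exact SI.one
    | succ i ih => rw [_root_.zpow_add_one, _root_.zpow_add_one]; exact ih.mul hw
    | pred i ih => rw [_root_.zpow_sub_one, _root_.zpow_sub_one]; exact ih.mul hw.inv
  have h1 : SI 3 q (1 : F ≃+* F) (yy A θ * (w ^ m)⁻¹) := by
    have := hyI.mul (hzpow m).inv
    rwa [hm', mul_inv_cancel] at this
  obtain ⟨a, ha1, ha0, j, s, hs⟩ := hSgen _ h1 (mul_mem hyH (inv_mem (zpow_mem hwH m)))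
  have h2 : yy A θ * (w ^ m)⁻¹ ∈ LL M := by
    rw [hs]
    exact mul_mem (mul_mem (hrhoM s) (pow_mem (inv_mem hSM) j)) (scal_mem M ha1 ha0)
  have h3 : yy A θ ∈ LL M := by
    have := mul_mem h2 (zpow_mem hwM m)
    rwa [inv_mul_cancel_right] at this
  obtain ⟨-, β', hβ', hi⟩ := h3
  rw [hA, ← Ind.unique pr_surjective rho_injective hi (ind_yy A θ)]
  exact hβ'

end aut

/-! ### From an abstract almost simple group to a subgroup of `Aut` -/

/-- `G` with a normal subgroup `T ≃* P` of trivial centraliser is isomorphic to a subgroup of `Aut P` containing the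
inner automorphisms. -/
theorem exists_sub {G P : Type*} [Group G] [Group P] (T : Subgroup G) [T.Normal]
    (hc : Subgroup.centralizer (T : Set G) = ⊥) (e : ↥T ≃* P) :
    ∃ H : Subgroup (MulAut P), (∀ x, MulAut.conj x ∈ H) ∧ Nonempty (G ≃* ↥H) := by
  let φ : G →* MulAut P := (MulAut.congr e).toMonoidHom.comp MulAut.conjNormal
  have hφ : ∀ g x, φ g x = e (MulAut.conjNormal g (e.symm x)) := fun _ _ => rfl
  have hinj : Function.Injective φ := by
    rw [injective_iff_map_eq_one]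
    intro g hg
    have h1 : g ∈ Subgroup.centralizer (T : Set G) := by
      rw [Subgroup.mem_centralizer_iff]
      intro t ht
      have h2 : φ g (e ⟨t, ht⟩) = e ⟨t, ht⟩ := by rw [hg]; rfl
      rw [hφ, e.symm_apply_apply] at h2
      have h3 := congrArg Subtype.val (e.injective h2)
      rw [MulAut.conjNormal_apply] at h3
      have h4 : g * t * g⁻¹ = t := h3
      rw [mul_inv_eq_iff_eq_mul] at h4
      exact h4.symm
    rw [hc, Subgroup.mem_bot] at h1
    exact h1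
  refine ⟨φ.range, fun x => ⟨(e.symm x : G), ?_⟩, ⟨MonoidHom.ofInjective hinj⟩⟩
  ext y
  rw [hφ]
  have h1 : MulAut.conjNormal ((e.symm x : ↥T) : G) (e.symm y) = e.symm x * e.symm y * (e.symm x)⁻¹ := by
    apply Subtype.ext
    rw [MulAut.conjNormal_apply]
    rfl
  rw [h1, map_mul, map_mul, map_inv, e.apply_symm_apply, e.apply_symm_apply]
  rfl

/-- **TEAM GEN H**: the row `psu` of `ASRows`. -/
theorem row_psu {G : Type*} {Ω : Type*} [Group G] [MulAction G Ω] (T : Subgroup G)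
    (A : Cfsg.Agent.H384.TwoTrans.AS G Ω T) (F : Type) [Field F] [Fintype F] (q : ℕ) (hq : 3 ≤ q)
    (hF : Fintype.card F = q ^ 2) (e : Nonempty (↥T ≃* Cfsg.PSU 3 F q)) : TwoGen G := by
  obtain ⟨e⟩ := e
  have := A.normal
  obtain ⟨H, hH, ⟨f⟩⟩ := exists_sub T A.cent e
  exact (twoGen_of_inn hF hq H hH).of_equiv f.symm

end Cfsg.Agent.H450.GenU
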